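import Groth.Prelude.Def_Coh
import Groth.Agent.VarietyA.EulerLES
import Groth.Agent.Ega3B.EulerAlg
import Mathlib.RingTheory.Length

/-!
# Euler characteristics as lengths (helper47)

`X` a scheme over `Spec R`. `Good R F`: all `H^i(X, F)` have finite length over `R` and vanish for `i ≥ 2`.
`chi R F = length_R H^0(X, F) - length_R H^1(X, F)`. Both are compatible with isomorphisms and short exact
sequences.
-/

set_option autoImplicit false
universe u

open CategoryTheory CategoryTheory.Limits AlgebraicGeometry Opposite TopologicalSpace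

namespace Groth.Agent.Models.H47.EulerLen

open Groth.Agent.VarietyA

variable (R : Type u) [CommRing R] {X : Scheme.{u}} [X.Over (Spec (CommRingCat.of R))]

/-- All `H^i(X, F)` have finite length over `R` and vanish for `i ≥ 2`. -/
def Good (F : X.Modules) : Prop :=
  (∀ i, IsFiniteLength R (Coh.HH X F i)) ∧ ∀ i, 2 ≤ i → Subsingleton (Coh.HH X F i)

/-- `length_R H^0(X, F) - length_R H^1(X, F)`. -/
noncomputable def chi (F : X.Modules) : ℤ :=
  ((Module.length R (Coh.HH X F 0)).toNat : ℤ) - ((Module.length R (Coh.HH X F 1)).toNat : ℤ)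

theorem length_congr {F G : X.Modules} (e : F ≅ G) (i : ℕ) :
    Module.length R (Coh.HH X F i) = Module.length R (Coh.HH X G i) :=
  (EulerLES.equivA R e i).length_eq

theorem chi_congr {F G : X.Modules} (e : F ≅ G) : chi R F = chi R G := by
  unfold chi
  rw [length_congr R e 0, length_congr R e 1]

variable {R}

theorem Good.congr {F G : X.Modules} (h : Good R F) (e : F ≅ G) : Good R G := by
  refine ⟨fun i => ?_, fun i hi => ?_⟩
  · exact (EulerLES.equivA R e i).isFiniteLength (h.1 i)
  · have := h.2 i hi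
    exact (EulerLES.equivA R e i).symm.injective.subsingleton

theorem isFiniteLength_of_exact {A B C : Type u} [AddCommGroup A] [AddCommGroup B] [AddCommGroup C]
    [Module R A] [Module R B] [Module R C] (f : A →ₗ[R] B) (g : B →ₗ[R] C) (h : Function.Exact f g)
    (hA : IsFiniteLength R A) (hC : IsFiniteLength R C) : IsFiniteLength R B := by
  rw [isFiniteLength_iff_isNoetherian_isArtinian] at hA hC ⊢
  obtain ⟨hA1, hA2⟩ := hA
  obtain ⟨hC1, hC2⟩ := hC
  exact ⟨isNoetherian_of_range_eq_ker f g (LinearMap.exact_iff.1 h).symm,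
    isArtinian_of_range_eq_ker f g (LinearMap.exact_iff.1 h).symm⟩

theorem subsingleton_of_exact {A B C : Type u} [AddCommGroup A] [AddCommGroup B] [AddCommGroup C]
    [Module R A] [Module R B] [Module R C] (f : A →ₗ[R] B) (g : B →ₗ[R] C) (h : Function.Exact f g)
    (hA : Subsingleton A) (hC : Subsingleton C) : Subsingleton B := by
  refine subsingleton_of_forall_eq 0 fun x => ?_
  obtain ⟨a, rfl⟩ := (h x).1 (Subsingleton.elim _ _)
  rw [Subsingleton.elim a 0, map_zero]

/-- Good modules are stable under extensions. -/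
theorem Good.ext {S : ShortComplex X.Modules} (hS : S.ShortExact) (h1 : Good R S.X₁) (h3 : Good R S.X₃) :
    Good R S.X₂ :=
  ⟨fun i => isFiniteLength_of_exact _ _ (EulerLES.exactA₂ R S hS i) (h1.1 i) (h3.1 i),
    fun i hi => subsingleton_of_exact (R := R) _ _ (EulerLES.exactA₂ R S hS i) (h1.2 i hi) (h3.2 i hi)⟩

/-- Additivity of `chi`. -/
theorem chi_add {S : ShortComplex X.Modules} (hS : S.ShortExact) (h1 : Good R S.X₁) (h2 : Good R S.X₂)
    (h3 : Good R S.X₃) : chi R S.X₂ = chi R S.X₁ + chi R S.X₃ := by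
  have h := Ega3B.EulerAlg.alternating_length (A := R) (fun n => Coh.HH X S.X₁ n) (fun n => Coh.HH X S.X₂ n)
    (fun n => Coh.HH X S.X₃ n) (fun n => EulerLES.mapA R S.f n) (fun n => EulerLES.mapA R S.g n)
    (fun n => EulerLES.deltaA R S hS n (n + 1) rfl) (fun n => EulerLES.exactA₂ R S hS n)
    (fun n => EulerLES.exactA₃ R S hS n (n + 1) rfl) (fun n => EulerLES.exactA₁ R S hS n (n + 1) rfl)
    (EulerLES.injectiveA₀ R S hS) h1.1 h2.1 h3.1 1 (h1.2 2 le_rfl)
  simp only [Finset.sum_range_succ, Finset.range_zero, Finset.sum_empty, Ega3B.EulerAlg.len] at h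
  unfold chi
  linarith

/-- Quotients of good modules by good modules are good. -/
theorem Good.quot {S : ShortComplex X.Modules} (hS : S.ShortExact) (h1 : Good R S.X₁) (h2 : Good R S.X₂) :
    Good R S.X₃ :=
  ⟨fun i => isFiniteLength_of_exact _ _ (EulerLES.exactA₃ R S hS i (i + 1) rfl) (h2.1 i) (h1.1 (i + 1)),
    fun i hi => subsingleton_of_exact (R := R) _ _ (EulerLES.exactA₃ R S hS i (i + 1) rfl) (h2.2 i hi)
      (h1.2 (i + 1) (by omega))⟩

theorem good_of_isZero {F : X.Modules} (h : IsZero F) : Good R F ∧ chi R F = 0 := by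
  have h0 : ∀ i, Subsingleton (Coh.HH X F i) := by
    intro i
    refine subsingleton_of_forall_eq 0 fun x => ?_
    have h1 : EulerLES.mapΓ (𝟙 F) i x = x := by rw [EulerLES.mapΓ_id]; rfl
    rw [← h1, h.eq_of_src (𝟙 F) 0, EulerLES.mapΓ_zero]
    rfl
  refine ⟨⟨fun i => ?_, fun i _ => h0 i⟩, ?_⟩
  · have := h0 i
    exact IsFiniteLength.of_subsingleton
  · have := h0 0
    have := h0 1
    unfold chi
    rw [Module.length_eq_zero, Module.length_eq_zero]
    simp

end Groth.Agent.Models.H47.EulerLen
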