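import Groth.Prelude.Def_ModelsG
import Groth.Agent.Models.H47.EulerLen
import Groth.Agent.VarietyB.HHPush
import Groth.Agent.CurvesC.CurveCoh
import Groth.Agent.S0002

/-!
# Euler characteristics of modules on vertical curves, as lengths (helper47)

* `length_push`, `good_push_iff`, `chi_push`: invariance under pushforward along affine morphisms.
* `length_over`: change of the base ring along a surjection.
* `good_push_vert`, `chi_push_vert`: for `Γ : VertComp R X`, `X` proper over the discrete valuation ring `R` and `M`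
  coherent on `Γ`: `chi R (ι_* M) = eulerCharLE k Γ M 1`.
-/

set_option autoImplicit false
universe u

open CategoryTheory CategoryTheory.Limits AlgebraicGeometry Opposite TopologicalSpace

namespace Groth.Agent.Models.H47.EulerVert

open Groth.Agent.Models.H47.EulerLen

section Push

variable (R : Type u) [CommRing R] {X Z : Scheme.{u}} [X.Over (Spec (CommRingCat.of R))]
  [Z.Over (Spec (CommRingCat.of R))] (f : Z ⟶ X)

theorem length_push [IsAffineHom f] (hf : f ≫ (X ↘ Spec (CommRingCat.of R)) = Z ↘ Spec (CommRingCat.of R))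
    (M : Z.Modules) (hM : Coh.IsQCoh M) (i : ℕ) :
    Module.length R (Coh.HH X ((Scheme.Modules.pushforward f).obj M) i) = Module.length R (Coh.HH Z M i) := by
  obtain ⟨e⟩ := VarietyB.HHPush.exists_linearEquiv f R hf M hM i
  exact e.length_eq

theorem chi_push [IsAffineHom f] (hf : f ≫ (X ↘ Spec (CommRingCat.of R)) = Z ↘ Spec (CommRingCat.of R))
    (M : Z.Modules) (hM : Coh.IsQCoh M) :
    chi R ((Scheme.Modules.pushforward f).obj M) = chi R M := by
  unfold chi
  rw [length_push R f hf M hM, length_push R f hf M hM]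

theorem good_push_iff [IsAffineHom f] (hf : f ≫ (X ↘ Spec (CommRingCat.of R)) = Z ↘ Spec (CommRingCat.of R))
    (M : Z.Modules) (hM : Coh.IsQCoh M) :
    Good R ((Scheme.Modules.pushforward f).obj M) ↔ Good R M := by
  have key : ∀ i, Nonempty (Coh.HH X ((Scheme.Modules.pushforward f).obj M) i ≃ₗ[R] Coh.HH Z M i) :=
    fun i => VarietyB.HHPush.exists_linearEquiv f R hf M hM i
  constructor
  · intro h
    refine ⟨fun i => ?_, fun i hi => ?_⟩
    · obtain ⟨e⟩ := key i
      exact e.isFiniteLength (h.1 i)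
    · obtain ⟨e⟩ := key i
      have := h.2 i hi
      exact e.symm.injective.subsingleton
  · intro h
    refine ⟨fun i => ?_, fun i hi => ?_⟩
    · obtain ⟨e⟩ := key i
      exact e.symm.isFiniteLength (h.1 i)
    · obtain ⟨e⟩ := key i
      have := h.2 i hi
      exact e.injective.subsingleton

end Push

section Base

variable {R S : Type u} [CommRing R] [CommRing S] (φ : R →+* S) {Z : Scheme.{u}}

theorem toGlobal_comp (h : Z ⟶ Spec (CommRingCat.of S)) (r : R) :
    Coh.toGlobal (h ≫ Spec.map (CommRingCat.ofHom φ)) r = Coh.toGlobal h (φ r) := by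
  have h1 : (h ≫ Spec.map (CommRingCat.ofHom φ)).appTop.hom
      ((Scheme.ΓSpecIso (CommRingCat.of R)).inv.hom r) =
      h.appTop.hom ((Spec.map (CommRingCat.ofHom φ)).appTop.hom
        ((Scheme.ΓSpecIso (CommRingCat.of R)).inv.hom r)) := by
    rw [Scheme.Hom.comp_appTop]
    rfl
  have h2 : (Spec.map (CommRingCat.ofHom φ)).appTop.hom
      ((Scheme.ΓSpecIso (CommRingCat.of R)).inv.hom r) =
      (Scheme.ΓSpecIso (CommRingCat.of S)).inv.hom (φ r) := by
    have := Scheme.ΓSpecIso_inv_naturality (CommRingCat.ofHom φ)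
    exact congr(($this).hom r).symm
  change (h ≫ Spec.map (CommRingCat.ofHom φ)).appTop.hom
      ((Scheme.ΓSpecIso (CommRingCat.of R)).inv.hom r) = _
  rw [h1, h2]
  rfl

variable [Z.Over (Spec (CommRingCat.of R))] [Z.Over (Spec (CommRingCat.of S))]

/-- Length over `R` and over a quotient `S` of `R` agree. -/
theorem length_over (hφ : Function.Surjective φ)
    (h : (Z ↘ Spec (CommRingCat.of R)) = (Z ↘ Spec (CommRingCat.of S)) ≫ Spec.map (CommRingCat.ofHom φ))
    (M : Z.Modules) (i : ℕ) : Module.length R (Coh.HH Z M i) = Module.length S (Coh.HH Z M i) := by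
  let _ : Algebra R S := φ.toAlgebra
  have hsmul : ∀ (r : R) (x : Coh.HH Z M i), r • x = (φ r) • x := by
    intro r x
    change (Coh.toGlobal (Z ↘ Spec (CommRingCat.of R)) r : Coh.Γtop Z) • x =
      (Coh.toGlobal (Z ↘ Spec (CommRingCat.of S)) (φ r) : Coh.Γtop Z) • x
    rw [h, toGlobal_comp]
  have : IsScalarTower R S (Coh.HH Z M i) := by
    refine ⟨fun r s x => ?_⟩
    rw [hsmul, Algebra.smul_def, mul_smul]
    rfl
  exact Module.length_eq_of_surjective hφ

end Base

section Vert

variable {R : Type u} [CommRing R] [IsDomain R] [IsDiscreteValuationRing R]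
  {X : Over (Spec (CommRingCat.of R))}

/-- A vertical curve as a scheme over `Spec R`. -/
noncomputable abbrev overR (Γ : ArSurf.VertComp R X) : Γ.curve.left.Over (Spec (CommRingCat.of R)) :=
  ⟨Γ.curve.hom ≫ Spec.map (CommRingCat.ofHom (IsLocalRing.residue R))⟩

lemma isProper_curve [IsProper X.hom] (Γ : ArSurf.VertComp R X) :
    IsProper (Γ.curve.left ↘ Spec (CommRingCat.of (IsLocalRing.ResidueField R))) := by
  have h1 : IsProper (Γ.curve.hom ≫ Spec.map (CommRingCat.ofHom (IsLocalRing.residue R))) := by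
    rw [← Γ.w]
    infer_instance
  have h2 : IsSeparated (Spec.map (CommRingCat.ofHom (IsLocalRing.residue R))) := inferInstance
  exact IsProper.of_comp Γ.curve.hom (Spec.map (CommRingCat.ofHom (IsLocalRing.residue R)))

/-- `length_R H^i(X, ι_* M) = length_k H^i(Γ, M)`. -/
theorem length_push_vert (Γ : ArSurf.VertComp R X) (M : Γ.curve.left.Modules) (hM : Coh.IsQCoh M) (i : ℕ) :
    Module.length R (Coh.HH X.left ((Scheme.Modules.pushforward Γ.ι).obj M) i) =
      Module.length (IsLocalRing.ResidueField R) (Coh.HH Γ.curve.left M i) := by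
  let _ := overR Γ
  rw [length_push R Γ.ι Γ.w M hM i]
  exact length_over (IsLocalRing.residue R) IsLocalRing.residue_surjective rfl M i

/-- `length_R H^i(X, ι_* M) = dim_k H^i(Γ, M)` for `M` coherent. -/
theorem length_push_vert_eq_finrank [IsProper X.hom] (Γ : ArSurf.VertComp R X) (M : Γ.curve.left.Modules)
    (hM : Coh.IsCoh M) (i : ℕ) :
    Module.length R (Coh.HH X.left ((Scheme.Modules.pushforward Γ.ι).obj M) i) =
      Module.finrank (IsLocalRing.ResidueField R) (Coh.HH Γ.curve.left M i) := by
  have := isProper_curve Γ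
  have : Module.Finite (IsLocalRing.ResidueField R) (Coh.HH Γ.curve.left M i) :=
    Groth.Agent.S0002.result (IsLocalRing.ResidueField R) Γ.curve.left M hM i
  rw [length_push_vert Γ M hM.1 i, Module.length_eq_finrank]

theorem subsingleton_vert [IsProper X.hom] (Γ : ArSurf.VertComp R X) (M : Γ.curve.left.Modules)
    (i : ℕ) (hi : 2 ≤ i) : Subsingleton (Coh.HH Γ.curve.left M i) := by
  have := isProper_curve Γ
  exact CurvesC.CurveCoh.subsingleton_H_ge_two (IsLocalRing.ResidueField R) Γ.curve.left Γ.dim_eq M i hi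

theorem good_push_vert [IsProper X.hom] (Γ : ArSurf.VertComp R X) (M : Γ.curve.left.Modules)
    (hM : Coh.IsCoh M) : Good R ((Scheme.Modules.pushforward Γ.ι).obj M) := by
  refine ⟨fun i => ?_, fun i hi => ?_⟩
  · rw [← Module.length_ne_top_iff, length_push_vert_eq_finrank Γ M hM i]
    exact ENat.coe_ne_top _
  · let _ := overR Γ
    obtain ⟨e⟩ := VarietyB.HHPush.exists_linearEquiv Γ.ι R Γ.w M hM.1 i
    have := subsingleton_vert Γ M i hi
    exact e.injective.subsingleton

theorem chi_push_vert [IsProper X.hom] (Γ : ArSurf.VertComp R X) (M : Γ.curve.left.Modules)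
    (hM : Coh.IsCoh M) : chi R ((Scheme.Modules.pushforward Γ.ι).obj M) =
      FGA.eulerCharLE (IsLocalRing.ResidueField R) Γ.curve.left M 1 := by
  unfold chi
  rw [length_push_vert_eq_finrank Γ M hM 0, length_push_vert_eq_finrank Γ M hM 1]
  simp [FGA.eulerCharLE, Finset.sum_range_succ, ← sub_eq_add_neg]

/-- `chi R (ι_* M) = deg M + dim H^0(Γ, O) - dim H^1(Γ, O)`. -/
theorem chi_push_vert' [IsProper X.hom] (Γ : ArSurf.VertComp R X) (M : Γ.curve.left.Modules)
    (hM : Coh.IsCoh M) : chi R ((Scheme.Modules.pushforward Γ.ι).obj M) =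
      ArSurf.curveDeg (IsLocalRing.ResidueField R) Γ.curve.left M +
        ((Models.wdeg R X Γ : ℤ) - (Models.h1 R X Γ : ℤ)) := by
  rw [chi_push_vert Γ M hM]
  simp [ArSurf.curveDeg, FGA.eulerCharLE, Finset.sum_range_succ, ← sub_eq_add_neg, Models.wdeg, Models.h1]

end Vert

end Groth.Agent.Models.H47.EulerVert
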