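import Mathlib.Algebra.BigOperators.Ring.Finset
import Mathlib.Algebra.BigOperators.Fin
import Mathlib.Algebra.BigOperators.Pi
import Mathlib.Tactic.Ring
import Mathlib.Tactic.Linarith

/-!
# Numerical functions of divisors (helper47)

`F : ℕⁿ → ℤ` with `F(a + e_i) = F(a) + Σ_j a_j q_ij + c_i` and `F(0) = 0` satisfies `F(d m) = d F(m)` if
`Σ_j m_j q_ij = 0` for all `i`.
-/

set_option autoImplicit false

namespace Groth.Agent.Models.H47.Numeric

variable {n : ℕ} (F : (Fin n → ℕ) → ℤ) (q : Fin n → Fin n → ℤ) (c : Fin n → ℤ)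

/-- Induction on vectors of natural numbers by adding unit vectors. -/
theorem vec_induction {P : (Fin n → ℕ) → Prop} (h0 : P 0) (hs : ∀ a i, P a → P (a + Pi.single i 1))
    (a : Fin n → ℕ) : P a := by
  have key : ∀ (N : ℕ) (a : Fin n → ℕ), ∑ i, a i = N → P a := by
    intro N
    induction N with
    | zero =>
      intro a ha
      have : a = 0 := by
        funext i
        have := Finset.sum_eq_zero_iff.1 ha i (Finset.mem_univ i)
        exact this
      rw [this]
      exact h0
    | succ N ih =>
      intro a ha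
      have hne : ∃ i, a i ≠ 0 := by
        by_contra hcon
        push Not at hcon
        rw [Finset.sum_eq_zero fun i _ => hcon i] at ha
        omega
      obtain ⟨i, hi⟩ := hne
      have hb : a - Pi.single i 1 + Pi.single i 1 = a := by
        funext j
        rw [Pi.add_apply, Pi.sub_apply]
        by_cases hj : j = i
        · subst hj
          rw [Pi.single_eq_same]
          omega
        · rw [Pi.single_eq_of_ne hj]
          omega
      rw [← hb]
      apply hs
      apply ih
      have h1 : ∑ j, (a - Pi.single i 1 + Pi.single i 1 : Fin n → ℕ) j = N + 1 := by rw [hb, ha]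
      simp only [Pi.add_apply, Finset.sum_add_distrib] at h1
      have h2 : ∑ j, (Pi.single i 1 : Fin n → ℕ) j = 1 := by
        rw [Finset.sum_pi_single']
        simp
      omega
  exact key _ a rfl

theorem add_of_orth (h0 : F 0 = 0)
    (hs : ∀ a i, F (a + Pi.single i 1) = F a + ∑ j, (a j : ℤ) * q i j + c i) (m : Fin n → ℕ)
    (hm : ∀ i, ∑ j, (m j : ℤ) * q i j = 0) (b : Fin n → ℕ) : F (m + b) = F m + F b := by
  induction b using vec_induction with
  | h0 => rw [add_zero, h0, add_zero]
  | hs b i ih =>
    rw [← add_assoc, hs, hs, ih]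
    have : ∑ j, (((m + b) j : ℕ) : ℤ) * q i j = ∑ j, (b j : ℤ) * q i j := by
      simp only [Pi.add_apply, Nat.cast_add, add_mul, Finset.sum_add_distrib]
      rw [hm, zero_add]
    rw [this]
    ring

theorem nsmul_of_orth (h0 : F 0 = 0)
    (hs : ∀ a i, F (a + Pi.single i 1) = F a + ∑ j, (a j : ℤ) * q i j + c i) (m : Fin n → ℕ)
    (hm : ∀ i, ∑ j, (m j : ℤ) * q i j = 0) (d : ℕ) : F (d • m) = d * F m := by
  induction d with
  | zero => simp [h0]
  | succ d ih =>
    rw [succ_nsmul', add_of_orth F q c h0 hs m hm, ih]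
    push_cast
    ring

end Groth.Agent.Models.H47.Numeric
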